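import Cfsg.Agent.Solv.ClassNumber
import Cfsg.Agent.Solv.Fitting
import Cfsg.Agent.S4200

/-! Bounds for the class numbers of all subgroups of a finite group. -/

set_option autoImplicit false

namespace Cfsg.Lib.KR

open Subgroup Cfsg.Lib.Solv

universe u v

/-- The class number. -/
noncomputable abbrev kk (X : Type*) [Group X] : ℕ := Nat.card (ConjClasses X)

/-- Every subgroup of `X` has at most `m` conjugacy classes. -/
def KB (X : Type*) [Group X] (m : ℕ) : Prop := ∀ H : Subgroup X, kk H ≤ m

variable {X : Type*} {Y : Type*} [Group X] [Group Y] {a b m : ℕ}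

theorem kk_le_of_surj [Finite X] (f : X →* Y) (hf : Function.Surjective f) : kk Y ≤ kk X :=
  Nat.card_le_card_of_surjective _ (ConjClasses.map_surjective hf)

theorem kk_le_card [Finite X] : kk X ≤ Nat.card X :=
  Nat.card_le_card_of_surjective _ ConjClasses.mk_surjective

theorem KB.mono (h : KB X a) (hab : a ≤ b) : KB X b := fun H => (h H).trans hab

theorem KB.top [Finite X] (h : KB X a) : kk X ≤ a :=
  (kk_le_of_surj (⊤ : Subgroup X).subtype fun x => ⟨⟨x, mem_top x⟩, rfl⟩).trans (h ⊤)

theorem KB.of_card [Finite X] (h : Nat.card X ≤ a) : KB X a := fun H =>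
  kk_le_card.trans (H.card_le_card_group.trans h)

theorem KB.of_inj [Finite Y] (h : KB Y a) (f : X →* Y) (hf : Function.Injective f) : KB X a :=
  fun H => (kk_le_of_surj (H.equivMapOfInjective f hf).symm.toMonoidHom
    (H.equivMapOfInjective f hf).symm.surjective).trans (h _)

theorem KB.of_surj [Finite X] (h : KB X a) (f : X →* Y) (hf : Function.Surjective f) : KB Y a :=
  fun H => (kk_le_of_surj (f.subgroupComap H) (f.subgroupComap_surjective_of_surjective H hf)).trans
    (h _)

theorem KB.sub [Finite X] (h : KB X a) (H : Subgroup X) : KB H a :=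
  h.of_inj H.subtype H.subtype_injective

theorem KB.ext [Finite X] [Finite Y] (f : X →* Y) (h1 : KB f.ker a) (h2 : KB Y b) :
    KB X (a * b) := fun H => by
  refine (ClassNum.card_conjClasses_le_mul (f.comp H.subtype).ker).trans (Nat.mul_le_mul ?_ ?_)
  · let g : (f.comp H.subtype).ker →* f.ker :=
      (H.subtype.comp (f.comp H.subtype).ker.subtype).codRestrict _ fun x => x.2
    refine (h1.of_inj g fun x y e => ?_).top
    have e1 := congrArg Subtype.val e
    exact Subtype.ext (Subtype.ext e1)
  · exact (h2.of_inj _ (QuotientGroup.kerLift_injective (f.comp H.subtype))).top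

theorem KB.fam {ι : Type*} {Q : ι → Type*} [∀ i, Group (Q i)] [∀ i, Finite (Q i)] {c : ι → ℕ}
    (s : Finset ι) : ∀ (X : Type u) [Group X] [Finite X] (f : ∀ i, X →* Q i),
      (∀ x, (∀ i ∈ s, f i x = 1) → x = 1) → (∀ i ∈ s, KB (Q i) (c i)) → KB X (∏ i ∈ s, c i) := by
  classical
  induction s using Finset.induction_on with
  | empty =>
    intro X _ _ f h _
    have : Subsingleton X := ⟨fun x y => by rw [h x (by simp), h y (by simp)]⟩
    exact KB.of_card (by simp)
  | insert i s hi ih =>
    intro X _ _ f h1 h2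
    rw [Finset.prod_insert hi, mul_comm]
    refine KB.ext (f i) (ih _ (fun j => (f j).comp (f i).ker.subtype) (fun x hx => ?_)
      fun j hj => h2 j (Finset.mem_insert_of_mem hj)) (h2 i (Finset.mem_insert_self _ _))
    refine Subtype.ext (h1 _ fun j hj => ?_)
    rcases Finset.mem_insert.1 hj with rfl | hj
    · exact x.2
    · exact hx j hj

theorem KB.quot_le [Finite X] {N M : Subgroup X} [N.Normal] [M.Normal] (h : KB (X ⧸ N) a)
    (hle : N ≤ M) : KB (X ⧸ M) a :=
  h.of_surj (QuotientGroup.map N M (MonoidHom.id X) hle) fun y => by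
    obtain ⟨x, rfl⟩ := QuotientGroup.mk_surjective y
    exact ⟨x, rfl⟩

theorem KB.quot_ker [Finite Y] (h : KB Y a) (f : X →* Y) {N : Subgroup X} [N.Normal]
    [Finite X] (hle : f.ker ≤ N) : KB (X ⧸ N) a :=
  (h.of_inj _ (QuotientGroup.kerLift_injective f)).quot_le hle

/-- Two steps: `C / (C ⊓ N)` and `X / D`, where `D ≤ C N`. -/
theorem KB.step [Finite X] {N C D : Subgroup X} [N.Normal] [D.Normal] {K : Subgroup C} [K.Normal]
    (h1 : KB (C ⧸ K) a) (hK : K ≤ N.subgroupOf C) (h2 : KB (X ⧸ D) b) (hD : D ≤ C ⊔ N) :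
    KB (X ⧸ N) (a * b) := by
  have hN : N ≤ N ⊔ D := le_sup_left
  refine KB.ext (QuotientGroup.map N (N ⊔ D) (MonoidHom.id X) hN) ?_ (h2.quot_le le_sup_right)
  let g : C ⧸ K →* X ⧸ N := QuotientGroup.map K N C.subtype hK
  refine (h1.of_surj g.rangeRestrict g.rangeRestrict_surjective).of_inj (inclusion ?_)
    (inclusion_injective _)
  intro y hy
  obtain ⟨x, rfl⟩ := QuotientGroup.mk_surjective y
  have h3 : x ∈ C ⊔ N := (sup_le le_sup_right hD) ((QuotientGroup.eq_one_iff x).1 hy)
  obtain ⟨c, hc, n, hn, rfl⟩ := (mem_sup_of_normal_right).1 h3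
  refine ⟨QuotientGroup.mk ⟨c, hc⟩, ?_⟩
  rw [QuotientGroup.mk_mul, (QuotientGroup.eq_one_iff n).2 hn, mul_one]
  rfl

theorem isNilpotent_of_fam {ι : Type*} [Finite ι] {Q : ι → Type*} [∀ i, Group (Q i)]
    (f : ∀ i, X →* Q i) (N : ∀ i, Subgroup (Q i)) (hN : ∀ i, Group.IsNilpotent (N i))
    (h1 : ∀ i x, f i x ∈ N i) (h2 : ∀ x, (∀ i, f i x = 1) → x = 1) : Group.IsNilpotent X := by
  let g : X →* ∀ i, N i := MonoidHom.pi fun i => (f i).codRestrict _ (h1 i)
  have hg : Function.Injective g := (injective_iff_map_eq_one g).2 fun x hx =>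
    h2 x fun i => congrArg Subtype.val (congrFun hx i)
  exact Group.nilpotent_of_mulEquiv (MonoidHom.ofInjective hg).symm

/-- The conjugates of a homomorphism that is defined on a subgroup. -/
def cjHom {T C : Subgroup X} [hC : C.Normal] (h : C ≤ T) (x : X) : C →* T where
  toFun c := ⟨x⁻¹ * c * x, h (hC.conj_mem' c c.2 x)⟩
  map_one' := by ext; simp
  map_mul' c d := by ext; simp [mul_assoc]

/-- Wreath product bound. -/
theorem KB.wreath [Finite X] [Finite Y] {T N : Subgroup X} [N.Normal] (φ : T →* Y) (h1 : KB Y a)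
    (h2 : KB (X ⧸ T.normalCore) b)
    (hN : ∀ c : T.normalCore, (∀ x, φ (cjHom T.normalCore_le x c) = 1) → (c : X) ∈ N) :
    KB (X ⧸ N) (a ^ T.index * b) := by
  classical
  have := Fintype.ofFinite (X ⧸ T)
  let f : (X ⧸ T) → (T.normalCore →* Y) := fun i => φ.comp (cjHom T.normalCore_le i.out)
  let K : Subgroup T.normalCore := ⨅ i, (f i).ker
  have : K.Normal := normal_iInf_normal fun _ => inferInstance
  have h3 := KB.fam (c := fun _ => a) Finset.univ (T.normalCore ⧸ K)
    (fun i => QuotientGroup.lift K (f i) (iInf_le _ i)) (fun y hy => by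
      obtain ⟨x, rfl⟩ := QuotientGroup.mk_surjective y
      exact (QuotientGroup.eq_one_iff x).2 (mem_iInf.2 fun i => hy i (Finset.mem_univ i)))
    fun _ _ => h1
  rw [Finset.prod_const, Finset.card_univ, ← Nat.card_eq_fintype_card] at h3
  refine KB.step h3 (fun c hc => hN c fun x => ?_) h2 le_sup_left
  obtain ⟨t, ht⟩ := QuotientGroup.mk_out_eq_mul T x
  have h4 : φ (cjHom T.normalCore_le (x : X ⧸ T).out c) = 1 := mem_iInf.1 hc x
  have h5 : cjHom T.normalCore_le x c = t * cjHom T.normalCore_le (x : X ⧸ T).out c * t⁻¹ := by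
    ext
    simp only [cjHom, ht, MonoidHom.coe_mk, OneHom.coe_mk, coe_mul, coe_inv]
    group
  rw [h5, map_mul, map_mul, h4, mul_one, ← map_mul, mul_inv_cancel, map_one]

/-- Counting commuting pairs. -/
theorem KB.of_cent [Finite X] (Z : Set X) (h1 : (1 : X) ∈ Z) {z c : ℕ} (hz : Z.ncard ≤ z)
    (hc : ∀ g, g ∉ Z → Nat.card (centralizer ({g} : Set X)) ≤ c) (h0 : 0 < c) :
    KB X (z + c - 1) := fun H => by
  classical
  have := Fintype.ofFinite H
  have e := ClassNum.sum_card_cent_univ H
  rw [← Finset.sum_filter_add_sum_filter_not Finset.univ (fun h : H => (h : X) ∈ Z)] at e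
  have e1 := Finset.sum_le_card_nsmul (Finset.univ.filter fun h : H => (h : X) ∈ Z)
    (fun h : H => Nat.card (centralizer ({h} : Set H))) (Nat.card H)
    fun h _ => card_le_card_group _
  have e2 := Finset.sum_le_card_nsmul (Finset.univ.filter fun h : H => ¬ (h : X) ∈ Z)
    (fun h : H => Nat.card (centralizer ({h} : Set H))) c fun h hh => by
      refine le_trans ?_ (hc h (Finset.mem_filter.1 hh).2)
      refine Nat.card_le_card_of_injective
        (fun y => ⟨(y : H), mem_centralizer_singleton_iff.2
          (congrArg Subtype.val (mem_centralizer_singleton_iff.1 y.2))⟩) fun y y' e => ?_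
      have e1 := congrArg Subtype.val e
      exact Subtype.ext (Subtype.ext e1)
  have e3 : (Finset.univ.filter fun h : H => (h : X) ∈ Z).card ≤ z := by
    refine le_trans ?_ hz
    rw [← Set.ncard_coe_finset]
    exact Set.ncard_le_ncard_of_injOn Subtype.val (fun h hh => by simpa using hh)
      Subtype.val_injective.injOn
  have e4 : (Finset.univ.filter fun h : H => ¬ (h : X) ∈ Z).card < Nat.card H := by
    rw [Nat.card_eq_fintype_card]
    exact Finset.card_lt_card (Finset.filter_ssubset.2 ⟨1, Finset.mem_univ _, by simpa using h1⟩)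
  rw [smul_eq_mul] at e1 e2
  have e5 : kk H * Nat.card H < (z + c) * Nat.card H := by
    have := Nat.mul_le_mul_right (Nat.card H) e3
    have := (Nat.mul_lt_mul_right h0).2 e4
    unfold kk
    nlinarith
  have := Nat.lt_of_mul_lt_mul_right e5
  omega

theorem eight_mul_kk_le [Finite X] (h : ¬ IsMulCommutative X) : 8 * kk X ≤ 5 * Nat.card X := by
  classical
  have := Fintype.ofFinite X
  have e := ClassNum.sum_card_cent_univ X
  have h4 : 4 ≤ (center X).index := by
    by_contra h3
    have h0 : (center X).index ≠ 0 := index_ne_zero_of_finite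
    have hc : IsCyclic (X ⧸ center X) := by
      have h5 : (center X).index = 1 ∨ (center X).index = 2 ∨ (center X).index = 3 := by omega
      rcases h5 with h5 | h5 | h5
      · have : Subsingleton (X ⧸ center X) := (Nat.card_eq_one_iff_unique.1 h5).1
        infer_instance
      · have := Fact.mk Nat.prime_two
        exact isCyclic_of_prime_card h5
      · have := Fact.mk Nat.prime_three
        exact isCyclic_of_prime_card h5
    exact h ((QuotientGroup.mk' (center X)).isMulCommutative_of_isCyclic_of_ker_le_center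
      (QuotientGroup.ker_mk' _).le)
  have hZ : (Finset.univ.filter fun x : X => x ∈ center X).card = Nat.card (center X) := by
    rw [Nat.card_eq_fintype_card, Fintype.card_subtype]
  have e0 := Finset.card_filter_add_card_filter_not (s := Finset.univ) (fun x : X => x ∈ center X)
  rw [← Finset.sum_filter_add_sum_filter_not Finset.univ (fun x : X => x ∈ center X)] at e
  have e1 := Finset.sum_le_card_nsmul (Finset.univ.filter fun x : X => x ∈ center X)
    (fun x : X => 2 * Nat.card (centralizer ({x} : Set X))) (2 * Nat.card X)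
    fun x _ => Nat.mul_le_mul_left 2 (card_le_card_group _)
  have e2 := Finset.sum_le_card_nsmul (Finset.univ.filter fun x : X => ¬ x ∈ center X)
    (fun x : X => 2 * Nat.card (centralizer ({x} : Set X))) (Nat.card X) fun x hx => by
      have h5 : (centralizer ({x} : Set X)).index ≠ 1 := fun e => (Finset.mem_filter.1 hx).2
        (mem_center_iff.2 fun g => mem_centralizer_singleton_iff.1
          ((index_eq_one.1 e).ge (mem_top g)))
      have h6 : (centralizer ({x} : Set X)).index ≠ 0 := index_ne_zero_of_finite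
      rw [← (centralizer ({x} : Set X)).index_mul_card]
      exact Nat.mul_le_mul_right _ (by omega)
  rw [smul_eq_mul, ← Finset.mul_sum] at e1 e2
  rw [hZ] at e0 e1
  rw [Finset.card_univ, ← Nat.card_eq_fintype_card] at e0
  have e3 : 4 * Nat.card (center X) ≤ Nat.card X := by
    rw [← (center X).index_mul_card]; exact Nat.mul_le_mul_right _ h4
  refine Nat.le_of_mul_le_mul_right ?_ (Nat.card_pos (α := X))
  unfold kk
  nlinarith

theorem KB.of_five [Finite X] (h : ¬ IsMulCommutative X) (h1 : 5 * Nat.card X < 8 * (m + 1)) :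
    KB X m := fun H => by
  by_cases e : H = ⊤
  · subst e
    have := kk_le_of_surj (topEquiv (G := X)).symm.toMonoidHom (topEquiv (G := X)).symm.surjective
    have := eight_mul_kk_le h
    omega
  · have h2 : H.index ≠ 1 := fun e1 => e (index_eq_one.1 e1)
    have h3 : H.index ≠ 0 := index_ne_zero_of_finite
    have h4 : 2 * Nat.card H ≤ Nat.card X := by
      rw [← H.index_mul_card]; exact Nat.mul_le_mul_right _ (by omega)
    have := kk_le_card (X := H)
    omega

end Cfsg.Lib.KR
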